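import Mathlib
import Cfsg.Prelude.Def_Classical

/-!
# Automorphisms of a Sylow 2-subgroup of `SU₃(2ⁿ)` (S3162): statements of the packages

`T` is a group with coordinates `c : T → F × F` (`Coords F q T`), `q = 2 ^ n`, `|F| = q²`:
`c (x * y) = (a + a', b + b' + a ^ q * a')`, image `= {(a, b) | b + b ^ q = a ^ (q + 1)}`.
Each `Pkg…` is a `Prop`; a package is a proof of it (or of `PkgTransport → Pkg…` where said).
-/

set_option autoImplicit false

namespace Cfsg.Agent.Lib.Helper58.SuzA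

universe u v

/-- Coordinates of the Sylow 2-subgroup of `SU₃(q)`, `q` even. -/
structure Coords (F : Type u) [Field F] (q : ℕ) (T : Type v) [Group T] where
  c : T → F × F
  inj : Function.Injective c
  mul : ∀ x y, c (x * y) = ((c x).1 + (c y).1, (c x).2 + (c y).2 + (c x).1 ^ q * (c y).1)
  range : ∀ a b : F, (∃ x, c x = (a, b)) ↔ b + b ^ q = a ^ (q + 1)

/-- The maps `a ↦ l * ρ a` (`l ≠ 0`, `ρ` a field automorphism). -/
def Gam (F : Type u) [Field F] : Set (Equiv.Perm F) :=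
  {σ | ∃ l : F, l ≠ 0 ∧ ∃ ρ : F ≃+* F, ∀ a, σ a = l * ρ a}

/-- The automorphisms fixing the first coordinate. -/
def K {F : Type u} [Field F] {q : ℕ} {T : Type v} [Group T] (C : Coords F q T) :
    Subgroup (MulAut T) where
  carrier := {φ | ∀ x, (C.c (φ x)).1 = (C.c x).1}
  mul_mem' := by
    intro φ ψ hφ hψ x
    rw [MulAut.mul_apply, hφ, hψ]
  one_mem' := by
    intro x
    rw [MulAut.one_apply]
  inv_mem' := by
    intro φ hφ x
    have h := hφ (φ⁻¹ x)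
    rw [MulAut.apply_inv_self] at h
    exact h.symm

theorem mem_K {F : Type u} [Field F] {q : ℕ} {T : Type v} [Group T] (C : Coords F q T)
    (φ : MulAut T) : φ ∈ K C ↔ ∀ x, (C.c (φ x)).1 = (C.c x).1 := Iff.rfl

/-- (COORD) a Sylow 2-subgroup of `SU₃(2ⁿ)` has such coordinates (as in the proof of
`Cfsg.Agent.Lib.Helper45.su3_even_sylow_aut_center`). -/
def PkgCoord : Prop :=
  ∀ (F : Type u) [Field F] [Fintype F] (n : ℕ), 2 ≤ n → Fintype.card F = (2 ^ n) ^ 2 →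
    ∀ (P : Sylow 2 ↥(Cfsg.SU 3 F (2 ^ n))) (T : Type v) [Group T],
      (T ≃* ↥(P : Subgroup ↥(Cfsg.SU 3 F (2 ^ n)))) → Nonempty (Coords F (2 ^ n) T)

/-- (TR) the trace `b ↦ b + b ^ q` is onto the norms. -/
def PkgTr : Prop :=
  ∀ (F : Type u) [Field F] [Fintype F] (n : ℕ), 1 ≤ n → Fintype.card F = (2 ^ n) ^ 2 →
    ∀ a : F, ∃ b : F, b + b ^ (2 ^ n) = a ^ (2 ^ n + 1)

/-- (THETA) the action of `Aut T` on the first coordinate, as a homomorphism. -/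
def PkgTheta : Prop :=
  ∀ (F : Type u) [Field F] [Fintype F] (n : ℕ), 2 ≤ n → Fintype.card F = (2 ^ n) ^ 2 →
    ∀ (T : Type v) [Group T] (C : Coords F (2 ^ n) T),
      ∃ Θ : MulAut T →* Equiv.Perm F, ∀ (φ : MulAut T) (x : T), Θ φ (C.c x).1 = (C.c (φ x)).1

/-- (A) an automorphism induces an additive injection `A` on the first coordinate, compatible with
the norm `a ↦ a ^ (q + 1)` through a map `B` additive on the subfield `{b | b ^ q = b}`. -/
def PkgA : Prop :=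
  ∀ (F : Type u) [Field F] [Fintype F] (n : ℕ), 2 ≤ n → Fintype.card F = (2 ^ n) ^ 2 →
    ∀ (T : Type v) [Group T] (C : Coords F (2 ^ n) T) (φ : MulAut T),
      ∃ A B : F → F, (∀ x, (C.c (φ x)).1 = A (C.c x).1) ∧ (∀ a a', A (a + a') = A a + A a') ∧
        Function.Injective A ∧
        (∀ b b', b ^ (2 ^ n) = b → b' ^ (2 ^ n) = b' → B (b + b') = B b + B b') ∧
        ∀ a, A a ^ (2 ^ n + 1) = B (a ^ (2 ^ n + 1))

/-- (SEMI) additive injections compatible with the norm are `a ↦ l * ρ a`. -/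
def PkgSemi : Prop :=
  ∀ (F : Type u) [Field F] [Fintype F] (n : ℕ), 1 ≤ n → Fintype.card F = (2 ^ n) ^ 2 →
    ∀ A B : F → F, (∀ a a', A (a + a') = A a + A a') → Function.Injective A →
      (∀ b b', b ^ (2 ^ n) = b → b' ^ (2 ^ n) = b' → B (b + b') = B b + B b') →
      (∀ a, A a ^ (2 ^ n + 1) = B (a ^ (2 ^ n + 1))) →
      ∃ l : F, l ≠ 0 ∧ ∃ ρ : F ≃+* F, ∀ a, A a = l * ρ a

/-- (KERCOMM) the kernel is commutative of exponent 2. -/
def PkgKerComm : Prop :=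
  ∀ (F : Type u) [Field F] [Fintype F] (n : ℕ), 2 ≤ n → Fintype.card F = (2 ^ n) ^ 2 →
    ∀ (T : Type v) [Group T] (C : Coords F (2 ^ n) T),
      (∀ φ ∈ K C, ∀ ψ ∈ K C, φ * ψ = ψ * φ) ∧ ∀ φ ∈ K C, φ * φ = 1

/-- (TRANSPORT) a bijection of the coordinate set respecting the product is an automorphism. -/
def PkgTransport : Prop :=
  ∀ (F : Type u) [Field F] (q : ℕ) (T : Type v) [Group T] (C : Coords F q T)
    (f g : F × F → F × F),
    (∀ a b, b + b ^ q = a ^ (q + 1) → (f (a, b)).2 + (f (a, b)).2 ^ q = (f (a, b)).1 ^ (q + 1)) →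
    (∀ a b, b + b ^ q = a ^ (q + 1) → (g (a, b)).2 + (g (a, b)).2 ^ q = (g (a, b)).1 ^ (q + 1)) →
    (∀ a b, b + b ^ q = a ^ (q + 1) → g (f (a, b)) = (a, b)) →
    (∀ a b, b + b ^ q = a ^ (q + 1) → f (g (a, b)) = (a, b)) →
    (∀ a b a' b', b + b ^ q = a ^ (q + 1) → b' + b' ^ q = a' ^ (q + 1) →
      f (a + a', b + b' + a ^ q * a') = ((f (a, b)).1 + (f (a', b')).1,
        (f (a, b)).2 + (f (a', b')).2 + (f (a, b)).1 ^ q * (f (a', b')).1)) →
    ∃ φ : MulAut T, ∀ x, C.c (φ x) = f (C.c x)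

/-- (KERCARD) the kernel has order `2 ^ (2 n²)`. -/
def PkgKerCard : Prop :=
  ∀ (F : Type u) [Field F] [Fintype F] (n : ℕ), 2 ≤ n → Fintype.card F = (2 ^ n) ^ 2 →
    ∀ (T : Type v) [Group T] (C : Coords F (2 ^ n) T), Nat.card (K C) = 2 ^ (2 * n ^ 2)

/-- (IMAGE) every `a ↦ l * ρ a` is induced by an automorphism. -/
def PkgImage : Prop :=
  ∀ (F : Type u) [Field F] [Fintype F] (n : ℕ), 1 ≤ n → Fintype.card F = (2 ^ n) ^ 2 →
    ∀ (T : Type v) [Group T] (C : Coords F (2 ^ n) T) (l : F), l ≠ 0 → ∀ ρ : F ≃+* F,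
      ∃ φ : MulAut T, ∀ x, (C.c (φ x)).1 = l * ρ (C.c x).1

/-- (GAMMA) there are `(q² - 1) · 2n` maps `a ↦ l * ρ a`. -/
def PkgGamma : Prop :=
  ∀ (F : Type u) [Field F] [Fintype F] (n : ℕ), 1 ≤ n → Fintype.card F = (2 ^ n) ^ 2 →
    Nat.card (Gam F) = ((2 ^ n) ^ 2 - 1) * (2 * n)

/-- (O2) the group of maps `a ↦ l * ρ a` has no non-trivial normal 2-subgroup. -/
def PkgO2 : Prop :=
  ∀ (F : Type u) [Field F] [Fintype F] (n : ℕ), 1 ≤ n → Fintype.card F = (2 ^ n) ^ 2 →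
    ∀ N : Subgroup (Equiv.Perm F), (∀ x ∈ N, x ∈ Gam F) →
      (∀ g ∈ Gam F, ∀ x ∈ N, g * x * g⁻¹ ∈ N) → IsPGroup 2 N → N = ⊥

end Cfsg.Agent.Lib.Helper58.SuzA
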