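import Mathlib
import Cfsg.Prelude.Def_Solvable
import Cfsg.Prelude.Def_Transfer
import Cfsg.Agent.Lib.Helper58.SuzA.Defs

/-!
# Automorphisms of a Sylow 2-subgroup of `SU₃(2ⁿ)`: assembly of the packages
-/

set_option autoImplicit false

namespace Cfsg.Agent.Lib.Helper58.SuzA

universe u v

theorem main (hTr : PkgTr.{u}) (hTh : PkgTheta.{u, v}) (hA : PkgA.{u, v}) (hSemi : PkgSemi.{u})
    (hKC : PkgKerComm.{u, v}) (hKcard : PkgKerCard.{u, v}) (hIm : PkgImage.{u, v})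
    (hG : PkgGamma.{u}) (hO : PkgO2.{u})
    {F : Type u} [Field F] [Fintype F] (n : ℕ) (hn : 2 ≤ n) (hF : Fintype.card F = (2 ^ n) ^ 2)
    {T : Type v} [Group T] (C : Coords F (2 ^ n) T) :
    Cfsg.IsElementaryAbelian 2 (Cfsg.pCore 2 (MulAut T)) ∧
      Nat.card (Cfsg.pCore 2 (MulAut T)) = 2 ^ (2 * n ^ 2) ∧
      Nat.card (MulAut T) = 2 ^ (2 * n ^ 2) * (2 * n * ((2 ^ n) ^ 2 - 1)) := by
  obtain ⟨Θ, hΘ⟩ := hTh F n hn hF T C
  have hn1 : 1 ≤ n := by omega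
  have hsurj : ∀ a : F, ∃ x : T, (C.c x).1 = a := by
    intro a
    obtain ⟨b, hb⟩ := hTr F n hn1 hF a
    obtain ⟨x, hx⟩ := (C.range a b).mpr hb
    exact ⟨x, by rw [hx]⟩
  have hker : Θ.ker = K C := by
    ext φ
    rw [MonoidHom.mem_ker, mem_K]
    constructor
    · intro h x
      rw [← hΘ, h]
      rfl
    · intro h
      ext a
      obtain ⟨x, rfl⟩ := hsurj a
      rw [hΘ, h]
      rfl
  have hrange : (Θ.range : Set (Equiv.Perm F)) = Gam F := by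
    ext σ
    constructor
    · rintro ⟨φ, rfl⟩
      obtain ⟨A, B, hA1, hA2, hA3, hB, hAB⟩ := hA F n hn hF T C φ
      obtain ⟨l, hl, ρ, hρ⟩ := hSemi F n hn1 hF A B hA2 hA3 hB hAB
      refine ⟨l, hl, ρ, fun a => ?_⟩
      obtain ⟨x, rfl⟩ := hsurj a
      rw [hΘ, hA1, hρ]
    · rintro ⟨l, hl, ρ, hσ⟩
      obtain ⟨φ, hφ⟩ := hIm F n hn1 hF T C l hl ρ
      refine ⟨φ, ?_⟩
      ext a
      obtain ⟨x, rfl⟩ := hsurj a
      rw [hΘ, hφ, hσ]
  have hcardK : Nat.card (K C) = 2 ^ (2 * n ^ 2) := hKcard F n hn hF T C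
  have hcardR : Nat.card Θ.range = ((2 ^ n) ^ 2 - 1) * (2 * n) := by
    rw [← hG F n hn1 hF]
    exact Nat.card_congr (Equiv.setCongr hrange)
  have hcardAut : Nat.card (MulAut T) = 2 ^ (2 * n ^ 2) * (2 * n * ((2 ^ n) ^ 2 - 1)) := by
    rw [Subgroup.card_eq_card_quotient_mul_card_subgroup Θ.ker,
      Nat.card_congr (QuotientGroup.quotientKerEquivRange Θ).toEquiv, hcardR, hker, hcardK]
    ring
  have hKnormal : (K C).Normal := hker ▸ MonoidHom.normal_ker Θ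
  have hKp : IsPGroup 2 (K C) := IsPGroup.of_card (n := 2 * n ^ 2) hcardK
  have hcore : Cfsg.pCore 2 (MulAut T) = K C := by
    apply le_antisymm
    · apply sSup_le
      rintro N ⟨hNn, hNp⟩
      have hbot : N.map Θ = ⊥ := by
        apply hO F n hn1 hF (N.map Θ)
        · rintro x ⟨φ, -, rfl⟩
          rw [← hrange]
          exact ⟨φ, rfl⟩
        · rintro g hg x ⟨φ, hφN, rfl⟩
          rw [← hrange] at hg
          obtain ⟨ψ, rfl⟩ := hg
          refine ⟨ψ * φ * ψ⁻¹, hNn.conj_mem φ hφN ψ, ?_⟩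
          simp
        · exact hNp.map Θ
      rw [← hker]
      intro φ hφ
      rw [MonoidHom.mem_ker]
      have h1 : Θ φ ∈ N.map Θ := Subgroup.mem_map_of_mem Θ hφ
      rw [hbot, Subgroup.mem_bot] at h1
      exact h1
    · exact le_sSup ⟨hKnormal, hKp⟩
  rw [hcore]
  refine ⟨⟨?_, ?_⟩, hcardK, hcardAut⟩
  · refine ⟨⟨?_⟩⟩
    rintro ⟨φ, hφ⟩ ⟨ψ, hψ⟩
    exact Subtype.ext ((hKC F n hn hF T C).1 φ hφ ψ hψ)
  · intro φ hφ
    rw [pow_two]
    exact (hKC F n hn hF T C).2 φ hφ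

end Cfsg.Agent.Lib.Helper58.SuzA
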